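import Cfsg.Agent.H756.PU.AsmGen
import Cfsg.Agent.H776.P4.Stmts2

/-!
# S5210, `q = 2`: the case where some `E_α` is essential
-/

set_option autoImplicit false

namespace Cfsg.Agent.H747.P4

open Cfsg Cfsg.FusionSystem Cfsg.Agent.H776.P4
open Cfsg.Agent.H756.PU (HypK Inv NormAut TIAut AF Ess StSame res_mem ext_mem syl_of_normal mem_range_sup
  top_le_normalizer_of_char map_conj_range autGroup_top_eq_of_AF not_norm_of_ess inv_top_of_char)

universe u

section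
variable {G0 : Type u} [Group G0]

/-- the restriction of an automorphism to a characteristic subgroup -/
theorem exists_res {Q : Subgroup G0} (h : ∀ α : MulAut G0, Q.map α.toMonoidHom = Q) (θ : MulAut G0) :
    ∃ t : MulAut Q, ∀ e : Q, ((t e : Q) : G0) = θ e := by
  refine ⟨(θ.subgroupMap Q).trans (MulEquiv.subgroupCongr (h θ)), fun e => ?_⟩
  rfl

/-- conjugation by the restriction of a global automorphism preserves `Aut_S(Q)` -/
theorem conj_res_mem {Q : Subgroup G0} {θ : MulAut G0} {t : MulAut Q} (ht : ∀ e : Q, ((t e : Q) : G0) = θ e)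
    {x : MulAut Q} (hx : x ∈ autInducedBy ⊤ Q) : t * x * t⁻¹ ∈ autInducedBy ⊤ Q := by
  rw [H802.mem_autInducedBy_iff] at hx ⊢
  obtain ⟨g, hg, hge⟩ := hx
  refine ⟨θ g, Subgroup.mem_top _, fun e => ?_⟩
  have h1 := hge (t⁻¹ e)
  have h2 : θ ((t⁻¹ e : Q) : G0) = (e : G0) := by
    rw [← ht]
    simp
  show ((t (x (t⁻¹ e)) : Q) : G0) = _
  rw [ht, h1, map_mul, map_mul, map_inv, h2]

theorem conj_res_mem' {Q : Subgroup G0} {θ : MulAut G0} {t : MulAut Q} (ht : ∀ e : Q, ((t e : Q) : G0) = θ e)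
    {x : MulAut Q} (hx : x ∈ autInducedBy ⊤ Q) : t⁻¹ * x * t ∈ autInducedBy ⊤ Q := by
  have h : ∀ e : Q, ((t⁻¹ e : Q) : G0) = θ⁻¹ e := by
    intro e
    apply θ.injective
    rw [← ht]
    simp
  simpa using conj_res_mem h hx

theorem normAut_conj {Q : Subgroup G0} {θ : MulAut G0} {t : MulAut Q} (ht : ∀ e : Q, ((t e : Q) : G0) = θ e)
    {γ : MulAut Q} (h : NormAut (⊤ : Subgroup G0) (t * γ * t⁻¹)) : NormAut (⊤ : Subgroup G0) γ := by
  intro x hx
  have h1 := h (t * x * t⁻¹) (conj_res_mem ht hx)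
  have h2 := conj_res_mem' ht h1
  have h3 : t⁻¹ * (t * γ * t⁻¹ * (t * x * t⁻¹) * (t * γ * t⁻¹)⁻¹) * t = γ * x * γ⁻¹ := by group
  rwa [h3] at h2

end

/-- the case where some `E_α` is essential -/
theorem real_of_EA (hG : StGrp.{u}) (hTI : StTI.{u}) (hPar : StPar.{u}) (hQ2 : StQTwo.{u}) (hB : StTwoB.{u})
    (hU : StTwoU.{u}) (hR : StTwoR.{u}) (hS2 : StTwoS.{u}) (hTw : StTwist2.{u})
    {K : Type u} [Field K] [StarRing K] {p n : ℕ} [Fact p.Prime] (hK : HypK K p n) (h2 : p ^ n = 2)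
    (F : FusionSystem (⊤ : Subgroup (PG K))) (hF : F.IsSaturated p) {α : K} (hα : α ≠ 0)
    (hE : F.IsEssential p (EA α)) : F.IsRealizable p := by
  have hfin : Finite (PG K) := by
    apply Nat.finite_of_card_ne_zero
    rw [(hG hK).1]
    exact pow_ne_zero _ (pow_ne_zero _ hK.pp.ne_zero)
  have hS : IsPGroup p (⊤ : Subgroup (PG K)) := (hG hK).2.1
  obtain ⟨-, -, hchar⟩ := (hTI hK).2 (PQ K) (Or.inr rfl)
  have hn := top_le_normalizer_of_char hchar
  rcases hB hK h2 F hF α hα hE with h | ⟨c, hAF, hnn⟩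
  · exact h
  obtain ⟨F1, hF1, hR1, c1, hAF1, hnn1⟩ := hR hK h2
  obtain ⟨θ, t, ht, hmap⟩ := hU hK h2 (F1.autGroup (PV K)) (F.autGroup (PV K))
    (H802.autInducedBy_le_autGroup F1 le_top) (H802.autInducedBy_le_autGroup F le_top) c1 c
  obtain ⟨F2, hF2, hR2, hAF2, -, haut⟩ := hTw F1 θ hF1
  obtain ⟨t', ht'⟩ := exists_res hchar θ
  have hV := haut (PV K) t ht
  have hQ := haut (PQ K) t' ht'
  rw [hmap] at hV
  rw [hAF1, map_conj_range] at hAF2
  -- both systems are in the same position on `Q`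
  have key : ∀ F' : FusionSystem (⊤ : Subgroup (PG K)), F'.IsSaturated p →
      AF F' = (MulAut.conj : PG K →* MulAut (PG K)).range →
      (¬ ∀ γ ∈ F'.autGroup (PQ K), NormAut (⊤ : Subgroup (PG K)) γ) → EqLD (F'.autGroup (PQ K)) (LamQ K) ⊥ := by
    intro F' hF' hA hN
    have hti : TIAut (⊤ : Subgroup (PG K)) (F'.autGroup (PQ K)) :=
      (hTI hK).1 _ (H802.autInducedBy_le_autGroup F' le_top) (syl_of_normal hS hF' hn)
    exact hQ2 hK h2 _ ⊥ (hPar hK F' ⊥ (PQ K) hF' (Or.inr rfl) bot_le (by simp) (by rw [hA, sup_bot_eq]) hti hN)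
  have e1 := key F hF hAF hnn
  have hnn2 : ¬ ∀ γ ∈ F2.autGroup (PQ K), NormAut (⊤ : Subgroup (PG K)) γ := by
    intro hcon
    apply hnn1
    intro γ hγ
    apply normAut_conj ht'
    apply hcon
    rw [hQ]
    exact ⟨γ, hγ, rfl⟩
  have e2 := key F2 hF2 hAF2 hnn2
  have hsame := hS2 hK h2 F F2 hF hF2 (autGroup_top_eq_of_AF (hAF.trans hAF2.symm)) hV.symm
    (Subgroup.ext fun γ => (e1 γ).trans (e2 γ).symm)
  rw [H802.fusionSystem_ext hsame]
  exact hR2.2 hR1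

end Cfsg.Agent.H747.P4
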