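import Cfsg.Agent.H776.P4.Asm
import Cfsg.Agent.H747.P4.TwoA

/-!
# S5210, `q = 2`: the assembly
-/

set_option autoImplicit false

namespace Cfsg.Agent.H747.P4

open Cfsg Cfsg.FusionSystem Cfsg.Agent.H776.P4
open Cfsg.Agent.H756.PU (HypK NormAut AF)

universe u

section
variable {K : Type u} [Field K] [StarRing K] {p n : ℕ}

/-- for `q = 2` the torus of `SL₂(q)` is trivial -/
theorem hasTorK_two (hK : HypK K p n) (h2 : p ^ n = 2) (D : Subgroup (MulAut (PG K))) : HasTorK D := by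
  intro t ht hst α hα
  have h1 : t = 1 := by
    rw [hK.star_eq, h2, sq] at hst
    exact mul_right_cancel₀ ht (hst.trans (one_mul t).symm)
  subst h1
  have : α = 1 := by
    apply MulEquiv.ext
    intro g
    apply PG.ext
    · rw [hα.r]; simp
    · rw [hα.a]; simp
    · rw [hα.b]; simp
    · rw [hα.c]; simp
  rw [this]
  exact D.one_mem

/-- `q = 2` -/
theorem real_two (H : Pcs.{u}) (hE2 : StTwoE.{u}) (hQ2 : StQTwo.{u}) (hB : StTwoB.{u}) (hU : StTwoU.{u})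
    (hR : StTwoR.{u}) (hS2 : StTwoS.{u}) (hK : HypK K p n) (h2 : p ^ n = 2)
    {F : FusionSystem (⊤ : Subgroup (PG K))} (hF : F.IsSaturated p) : F.IsRealizable p := by
  have : Fact p.Prime := ⟨hK.pp⟩
  by_cases hA : ∃ α : K, α ≠ 0 ∧ F.IsEssential p (EA α)
  · obtain ⟨α, hα, hE⟩ := hA
    exact real_of_EA H.grp H.ti H.par hQ2 hB hU hR hS2 H.tw hK h2 F hF hα hE
  have hess : ∀ E, F.IsEssential p E → E = PV K ∨ E = PQ K := by
    intro E hE
    rcases hE2 hK h2 F hF E hE with h | h | ⟨α, hα, h⟩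
    · exact Or.inl h
    · exact Or.inr h
    · rw [h] at hE
      exact absurd ⟨α, hα, hE⟩ hA
  by_cases hnV : ∀ γ ∈ F.autGroup (PV K), NormAut (⊤ : Subgroup (PG K)) γ
  · exact real_of_norm H hK hF hess (Or.inl rfl) hnV
  by_cases hnQ : ∀ γ ∈ F.autGroup (PQ K), NormAut (⊤ : Subgroup (PG K)) γ
  · exact real_of_norm H hK hF hess (Or.inr rfl) hnQ
  obtain ⟨θ, F', D, hTw, hNF⟩ := exists_NF H hK hF hess hnV hnQ
  have hE := hQ2 hK h2 _ D hNF.parQ
  obtain ⟨F0, h0, hR0, -⟩ := exists_real H hK hNF (hasTorK_two hK h2 D)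
  have hE0 := hQ2 hK h2 _ D h0.parQ
  have := hNF.eq_of H hK h0 (hE.eq hE0)
  rw [← hTw.real, this]
  exact hR0

end

end Cfsg.Agent.H747.P4
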